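import Mathlib
import Cfsg.Agent.Lib.GW.Basic
import Cfsg.Agent.Lib.W2.LocCommon
import Cfsg.Agent.Lib.Coprime.SchurZassenhaus
import Cfsg.Agent.Lib.Core.Basic

/-! # An element of order 5 with centraliser `5 × 2^3 · L₃(2)`: the abstract part -/

set_option autoImplicit false

namespace CfsgLib.J4T.Five

open Cfsg CfsgLib.GW CfsgLib.Tech Subgroup

variable {G : Type*} [Group G]

theorem cent_zpowers (f : G) : centralizer (zpowers f : Set G) = Hc f := by
  ext g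
  rw [mem_Hc, mem_centralizer_iff]
  refine ⟨fun h => (h f (mem_zpowers f)).symm, fun h => ?_⟩
  rintro _ ⟨k, rfl⟩
  exact (Commute.zpow_right (h : Commute g f) k).symm

theorem Hc_le_N (f : G) : Hc f ≤ normalizer (zpowers f : Set G) :=
  cent_zpowers f ▸ centralizer_le_normalizer _

theorem zp_le (f : G) : zpowers f ≤ Hc f := zpowers_le.2 (mem_Hc.2 rfl)

theorem relIndex_trans [Finite G] {K N : Subgroup G} {a : G} (hN : N ≤ normalizer (K : Set G))
    (ha : a ∈ K) (h1 : a ≠ 1) (ht : ∀ y ∈ K, y ≠ 1 → ∃ g ∈ N, g * a * g⁻¹ = y) :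
    (Hc a).relIndex N + 1 = Nat.card K := by
  rw [← GW.ncard_orb, show {x : G | ∃ g ∈ N, g * a * g⁻¹ = x} = (K : Set G) \ {1} from
    Set.ext fun x => ⟨fun ⟨g, hg, e⟩ => ⟨e ▸ conj_mem_of_mem_normalizer (hN hg) ha, fun e' => h1 (by
      rw [← e, Set.mem_singleton_iff, conj_eq_one_iff] at e'; exact e')⟩, fun ⟨h, h'⟩ => ht x h h'⟩,
    Set.ncard_diff_singleton_add_one K.one_mem, ← Nat.card_coe_set_eq]
  rfl

section
variable {f r : G} (hf : orderOf f = 5) (hr : r * f * r⁻¹ = f ^ 2)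
include hr

theorem pow_conj (k : ℕ) : r ^ k * f * (r ^ k)⁻¹ = f ^ 2 ^ k := by
  induction k with
  | zero => simp
  | succ k ih =>
    rw [pow_succ' r, show r * r ^ k * f * (r * r ^ k)⁻¹ = r * (r ^ k * f * (r ^ k)⁻¹) * r⁻¹ by group,
      ih, ← conj_pow, hr, ← pow_mul, pow_succ']

theorem r_mem [Finite G] : r ∈ normalizer (zpowers f : Set G) := mem_normalizer_of_forall (by
  rintro _ ⟨k, rfl⟩
  rw [← conj_zpow, hr]
  exact zpow_mem (pow_mem (mem_zpowers f) 2) k)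

include hf

theorem exists_pow_conj {y : G} (hy : y ∈ zpowers f) (h1 : y ≠ 1) :
    ∃ k : ℕ, r ^ k * f * (r ^ k)⁻¹ = y := by
  classical
  obtain ⟨i, hi, rfl⟩ := Finset.mem_image.1
    ((isOfFinOrder_iff_pow_eq_one.2 ⟨5, by norm_num, hf ▸ pow_orderOf_eq_one f⟩).mem_zpowers_iff_mem_range_orderOf.1 hy)
  rw [hf, Finset.mem_range] at hi
  simp only [pow_conj hr, pow_eq_pow_iff_modEq, hf]
  interval_cases i
  exacts [absurd (pow_zero f) h1, ⟨0, by decide⟩, ⟨1, by decide⟩, ⟨3, by decide⟩, ⟨2, by decide⟩]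

theorem card_N [Finite G] : Nat.card (normalizer (zpowers f : Set G)) = Nat.card (Hc f) * 4 := by
  have := relIndex_trans le_rfl (mem_zpowers f) (fun e => by simp [e] at hf) fun y hy h1 =>
    let ⟨k, hk⟩ := exists_pow_conj hf hr hy h1
    ⟨r ^ k, pow_mem (r_mem hr) k, hk⟩
  rw [Nat.card_zpowers, hf] at this
  rw [← card_mul_relIndex' (Hc_le_N f), show (Hc f).relIndex _ = 4 by omega]

theorem exists_R [Finite G] (h4 : r ^ 4 = 1) : ∃ R : Subgroup G, zpowers f ≤ R ∧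
    R ≤ normalizer (zpowers f : Set G) ∧ Nat.card R = 20 ∧
      R ⊓ centralizer (zpowers f : Set G) = zpowers f := by
  have key : ∀ k : ℕ, r ^ k ∈ Hc f → 4 ∣ k := fun k hk => by
    have e := pow_conj hr k
    rw [mem_Hc.1 hk, mul_inv_cancel_right, ← pow_one f, ← pow_mul, one_mul, pow_eq_pow_iff_modEq, hf,
      ← Nat.div_add_mod k 4, pow_add, pow_mul] at e
    have e2 : (2 ^ 4) ^ (k / 4) * 2 ^ (k % 4) ≡ 1 ^ (k / 4) * 2 ^ (k % 4) [MOD 5] :=
      (Nat.ModEq.pow _ (by decide)).mul_right _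
    have e3 := e.trans e2
    rw [one_pow, one_mul] at e3
    have : k % 4 < 4 := Nat.mod_lt _ (by norm_num)
    generalize hm : k % 4 = m at e3 this
    interval_cases m
    exacts [by omega, absurd e3 (by decide), absurd e3 (by decide), absurd e3 (by decide)]
  have hb : zpowers r ⊓ Hc f = ⊥ := eq_bot_iff.2 fun y ⟨h1, h2⟩ => by
    obtain ⟨k, rfl⟩ := (mem_powers_iff_mem_zpowers.2 h1)
    obtain ⟨m, rfl⟩ := key k h2
    exact mem_bot.2 (by simp only [pow_mul, h4, one_pow])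
  have hn := zpowers_le.2 (r_mem hr)
  have ho : orderOf r = 4 := Nat.dvd_antisymm (orderOf_dvd_of_pow_eq_one h4)
    (key _ (by rw [pow_orderOf_eq_one]; exact one_mem _))
  refine ⟨zpowers f ⊔ zpowers r, le_sup_left, sup_le le_normalizer hn, ?_, ?_⟩
  · have := Coprime.card_sup_mul_card_inf hn
    rwa [show zpowers f ⊓ zpowers r = ⊥ from eq_bot_iff.2 (hb ▸ fun y h => ⟨h.2, zp_le f h.1⟩),
      card_bot, mul_one, Nat.card_zpowers, Nat.card_zpowers, hf, ho] at this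
  · rw [cent_zpowers]
    refine le_antisymm (fun y ⟨h1, h2⟩ => ?_) (le_inf le_sup_left (zp_le f))
    obtain ⟨a, ha, b, hb', rfl⟩ := (Core.mem_sup_of_le_normalizer_left hn).1 h1
    rwa [mem_bot.1 (hb.le ⟨hb', (mul_mem_cancel_left (zp_le f ha)).1 h2⟩), mul_one]

end

/-- the data on the centraliser of `f` -/
structure FD (f x r : G) (Z : Subgroup G) : Prop where
  ord : orderOf f = 5
  card : Nat.card Z = 8
  comm : ∀ a ∈ Z, ∀ b ∈ Z, a * b = b * a
  two : ∀ a ∈ Z, a * a = 1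
  norm : Hc f ≤ normalizer (Z : Set G)
  le : Z ≤ Hc f
  cent : ∀ y ∈ Hc f, (∀ e ∈ Z, y * e = e * y) → ∃ e ∈ Z, ∃ i : ℕ, y = e * f ^ i
  dvd : 1344 ∣ Nat.card (Hc f)
  x_mem : x ∈ Hc f
  x4 : x ^ 4 ∈ Z
  ne : ∀ e ∈ Z, (e * x) ^ 4 ≠ 1
  rf : r * f * r⁻¹ = f ^ 2
  r4 : r ^ 4 = 1

namespace FD

variable {f x r : G} {Z : Subgroup G} (d : FD f x r Z)
include d

theorem cj (g : G) : FD (g * f * g⁻¹) (g * x * g⁻¹) (g * r * g⁻¹) (cj g Z) := by
  have hH : Tech.cj g (Hc f) = Hc (g * f * g⁻¹) := cj_centralizer_singleton g f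
  refine ⟨by rw [ord_conj, d.ord], by rw [card_cj, d.card], ?_, ?_, ?_, hH ▸ cj_mono g d.le, ?_,
    by rw [← hH, card_cj]; exact d.dvd, hH ▸ conj_mem_cj.2 d.x_mem,
    by rw [conj_pow]; exact conj_mem_cj.2 d.x4, ?_, by rw [conj_pow, ← d.rf]; group,
    by rw [conj_pow, d.r4]; simp⟩
  · rintro _ ⟨a, ha, rfl⟩ _ ⟨b, hb, rfl⟩
    rw [← map_mul, ← map_mul, d.comm a ha b hb]
  · rintro _ ⟨a, ha, rfl⟩
    rw [← map_mul, d.two a ha, map_one]
  · rw [← cj_normalizer]; exact hH ▸ cj_mono g d.norm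
  · intro y hy h
    obtain ⟨e, he, i, e'⟩ := d.cent (g⁻¹ * y * g) (mem_cj.1 (hH.ge hy)) fun e he => by
      calc _ = g⁻¹ * (y * (g * e * g⁻¹)) * g := by group
        _ = _ := by rw [h _ (conj_mem_cj.2 he)]; group
    exact ⟨_, conj_mem_cj.2 he, i, by rw [conj_pow, conj_mul, ← e']; group⟩
  · rintro _ ⟨a, ha, rfl⟩ e
    refine d.ne a ha (conj_eq_one_iff.1 (?_ : g * _ * g⁻¹ = 1))
    rw [← conj_pow, ← conj_mul]; exact e

variable [Finite G]

theorem card_C : Nat.card (Hc f) = 6720 := by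
  haveI : Fact (Nat.Prime 2) := ⟨by norm_num⟩
  haveI : IsMulCommutative Z := ⟨⟨fun a b => Subtype.ext (d.comm _ a.2 _ b.2)⟩⟩
  obtain ⟨φ, hφ⟩ := InvChar.exists_mulAut_hom_GL (V := Z) (p := 2) (n := 3)
    (fun a => Subtype.ext (by simpa [pow_two] using d.two _ a.2)) d.card.le
  let ψ := (φ.comp Z.normalizerMonoidHom).comp (inclusion d.norm)
  have h1 : ψ.ker.index ∣ 168 := by
    rw [index_ker, show 168 = Nat.card (GL (Fin 3) (ZMod 2)) by
      rw [Matrix.card_GL_field]; simp [Fin.prod_univ_three]]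
    exact card_subgroup_dvd_card _
  have hn : zpowers f ≤ normalizer (Z : Set G) := (zp_le f).trans d.norm
  have h2 : Nat.card ψ.ker ∣ 40 := by
    have := Coprime.card_sup_mul_card_inf hn
    rw [d.card, Nat.card_zpowers, d.ord] at this
    refine ((card_map_of_injective (Hc f).subtype_injective).symm.dvd.trans (card_dvd_of_le ?_)).trans
      (Dvd.intro _ this)
    rintro _ ⟨y, hy, rfl⟩
    have hy' : inclusion d.norm y ∈ Z.normalizerMonoidHom.ker := (map_eq_one_iff φ hφ).1 hy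
    rw [normalizerMonoidHom_ker] at hy'
    obtain ⟨e, he, i, e'⟩ := d.cent y y.2 fun e he => (hy' e he).symm
    exact (show (y : G) ∈ _ from e' ▸ mul_mem (mem_sup_left he) (mem_sup_right (npow_mem_zpowers f i)))
  have h3 : Nat.card (Hc f) ∣ 40 * 168 := ψ.ker.card_mul_index ▸ mul_dvd_mul h2 h1
  have h5 : 5 ∣ Nat.card (Hc f) := d.ord ▸ orderOf_dvd_natCard _ (self_mem_Hc f)
  exact Nat.dvd_antisymm h3 (Nat.Coprime.mul_dvd_of_dvd_of_dvd (m := 1344) (n := 5) (by norm_num) d.dvd h5)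

theorem card_N : Nat.card (normalizer (zpowers f : Set G)) = 26880 := by
  rw [Five.card_N d.ord d.rf, d.card_C]

theorem syl : IsSylowIn 5 (zpowers f) ⊤ := by
  haveI : Fact (Nat.Prime 5) := ⟨by norm_num⟩
  refine isSylowIn_of_isSylowIn_normalizer le_top ⟨le_inf le_top le_normalizer,
    isPGroup_zpowers_iff.2 ⟨1, d.ord⟩, ?_⟩
  have := card_mul_relIndex' (le_normalizer (H := zpowers f))
  rw [d.card_N, Nat.card_zpowers, d.ord] at this
  rw [top_inf_eq]
  omega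

theorem not25 : ¬ 25 ∣ Nat.card G := by
  have := card_mul_relIndex' (le_top (a := zpowers f))
  have h := d.syl.not_dvd
  rw [Nat.card_zpowers, d.ord, card_top] at this
  omega

theorem conj5 {y : G} (hy : orderOf y = 5) : ∃ g, g * f * g⁻¹ = y := by
  haveI : Fact (Nat.Prime 5) := ⟨by norm_num⟩
  obtain ⟨g, -, hg⟩ := d.syl.exists_conj_mem (mem_top y) (isPGroup_zpowers_iff.2 ⟨1, hy⟩)
  obtain ⟨k, hk⟩ := exists_pow_conj d.ord d.rf hg fun e => by
    rw [conj_eq_one_iff.1 e, orderOf_one] at hy; omega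
  exact ⟨g⁻¹ * r ^ k, by
    calc _ = g⁻¹ * (r ^ k * f * (r ^ k)⁻¹) * g := by group
      _ = y := by rw [hk]; group⟩

theorem cent5 {y : G} (hy : orderOf y = 5) : Nat.card (centralizer ({y} : Set G)) = 6720 := by
  obtain ⟨g, rfl⟩ := d.conj5 hy
  exact (d.cj g).card_C

theorem exists_J : ∃ J : Subgroup G, IsInternalDirectProduct (zpowers f) J (Hc f) ∧ Z ≤ J ∧
    ∃ _ : (Z.subgroupOf J).Normal,
      Nonempty (J ⧸ Z.subgroupOf J ≃* Matrix.SpecialLinearGroup (Fin 3) (ZMod 2)) ∧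
      ∀ K : Subgroup J, ¬ (Z.subgroupOf J).IsComplement' K := by
  have hi : (zpowers f).relIndex (Hc f) = 1344 := by
    have := card_mul_relIndex' (zp_le f)
    rw [d.card_C, Nat.card_zpowers, d.ord] at this
    omega
  obtain ⟨J, hJ, h1, h2, h3⟩ := Coprime.exists_complement_of_le_normalizer (zp_le f) (Hc_le_N f)
    (by rw [hi, Nat.card_zpowers, d.ord]; norm_num)
  have hc : ∀ a ∈ zpowers f, ∀ b ∈ J, a * b = b * a := fun a ha b hb =>
    (cent_zpowers f).ge (hJ hb) a ha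
  have h5 : ∀ a ∈ zpowers f, a ^ 5 = 1 := fun a ha =>
    orderOf_dvd_iff_pow_eq_one.1 (d.ord ▸ orderOf_dvd_of_mem_zpowers ha)
  have key : ∀ y ∈ Hc f, y ^ 8 = 1 → y ∈ J := fun y hy h8 => by
    obtain ⟨a, ha, b, hb, rfl⟩ := (Core.mem_sup_of_le_normalizer_left (hJ.trans (Hc_le_N f))).1 (h2.ge hy)
    rw [Commute.mul_pow (hc a ha b hb)] at h8
    have e : a ^ 8 = 1 := mem_bot.1 (h1.le ⟨pow_mem ha 8, by
      rw [eq_inv_of_mul_eq_one_left h8]; exact J.inv_mem (J.pow_mem hb 8)⟩)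
    have e' : a = 1 := by
      rw [← pow_one a, ← show Nat.gcd 8 5 = 1 from rfl]; exact pow_gcd_eq_one.2 ⟨e, h5 a ha⟩
    rwa [e', one_mul]
  have hZ : Z ≤ J := fun e he => key e (d.le he) (by
    rw [show 8 = 2 * 4 from rfl, pow_mul, pow_two, d.two e he, one_pow])
  have hx : x ∈ J := key x d.x_mem (by rw [show 8 = 4 * 2 from rfl, pow_mul, pow_two, d.two _ d.x4])
  have hN := normal_subgroupOf_of_le_normalizer (hJ.trans d.norm)
  refine ⟨J, ⟨zp_le f, hJ, hc, h1, h2⟩, hZ, hN, ?_, fun K hK => ?_⟩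
  · haveI : IsMulCommutative (Z.subgroupOf J) :=
      ⟨⟨fun a b => Subtype.ext (Subtype.ext (d.comm _ a.2 _ b.2))⟩⟩
    obtain ⟨e⟩ := W2.l32_of_normal (Z.subgroupOf J) (fun v hv => Subtype.ext (by
      simpa [pow_two] using d.two _ hv)) (by rw [Nat.card_congr (subgroupOfEquivOfLe hZ).toEquiv, d.card])
      (fun y hy => by
        obtain ⟨e, he, i, e'⟩ := d.cent y (hJ y.2) fun e he =>
          congrArg Subtype.val (hy ⟨e, hZ he⟩ he).symm
        have : f ^ i = 1 := mem_bot.1 (h1.le ⟨npow_mem_zpowers f i,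
          (mul_mem_cancel_left (hZ he)).1 (e' ▸ y.2)⟩)
        rw [this, mul_one] at e'
        exact mem_subgroupOf.2 (e' ▸ he)) (by rw [h3, hi]; norm_num) (by rw [h3, hi]; norm_num)
    obtain ⟨e'⟩ := D8Cent.nonempty_psl_three_two_equiv
    exact ⟨e.trans e'⟩
  · obtain ⟨⟨a, b⟩, e⟩ := hK.existsUnique ⟨x, hx⟩ |>.exists
    have hb : ((b : J) : G) = ((a : J) : G)⁻¹ * x := by
      rw [eq_inv_mul_iff_mul_eq]; exact congrArg Subtype.val e
    refine d.ne _ (Z.inv_mem a.2) (hb ▸ congrArg Subtype.val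
      (mem_bot.1 (hK.disjoint.le_bot ⟨(?_ : _ ∈ Z.subgroupOf J), pow_mem b.2 4⟩) : (b : J) ^ 4 = 1))
    rw [← QuotientGroup.eq_one_iff, QuotientGroup.mk_pow, eq_inv_mul_of_mul_eq e, QuotientGroup.mk_mul,
      (QuotientGroup.eq_one_iff _).2 (inv_mem a.2), one_mul, ← QuotientGroup.mk_pow,
      QuotientGroup.eq_one_iff]
    exact d.x4

theorem main : ¬ (25 ∣ Nat.card G) ∧
    (∃ J : Subgroup G, IsInternalDirectProduct (zpowers f) J (centralizer (zpowers f : Set G)) ∧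
      ∃ (E : Subgroup J) (_ : E.Normal), IsElementaryAbelian 2 E ∧ Nat.card E = 8 ∧
        Nonempty (J ⧸ E ≃* Matrix.SpecialLinearGroup (Fin 3) (ZMod 2)) ∧
        ∀ K : Subgroup J, ¬ E.IsComplement' K) ∧
    (∃ R : Subgroup G, zpowers f ≤ R ∧ R ≤ normalizer (zpowers f : Set G) ∧ Nat.card R = 20 ∧
      R ⊓ centralizer (zpowers f : Set G) = zpowers f) ∧
    Nat.card (normalizer (zpowers f : Set G)) = 2 ^ 8 * 3 * 5 * 7 := by
  obtain ⟨J, h1, h2, h3, h4, h5⟩ := d.exists_J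
  exact ⟨d.not25, ⟨J, cent_zpowers f ▸ h1, _, h3,
    ⟨⟨⟨fun a b => Subtype.ext (Subtype.ext (d.comm _ a.2 _ b.2))⟩⟩, fun v hv => Subtype.ext (by
      simpa [pow_two] using d.two _ hv)⟩,
    by rw [Nat.card_congr (subgroupOfEquivOfLe h2).toEquiv, d.card], h4, h5⟩,
    exists_R d.ord d.rf d.r4, d.card_N⟩

end FD

end CfsgLib.J4T.Five
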