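import Mathlib
import Cfsg.Agent.Lib.J4T.FiveA
import Cfsg.Agent.Lib.J4T.FiveB
import Cfsg.Agent.Lib.Tech.Invol

/-! # Elements of order 5 in a group of Janko-four type -/

set_option autoImplicit false

namespace CfsgLib.J4T

open Cfsg CfsgLib.Golay CfsgLib.M24E CfsgLib.GW CfsgLib.Tech Subgroup
open scoped Pointwise

variable {G : Type*} [Group G] {z : G}

theorem sq_of_isConj {z y : G} (hz : z * z = 1) (h : IsConj z y) : y * y = 1 := by
  obtain ⟨g, rfl⟩ := isConj_iff.1 h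
  rw [conj_mul, hz]; simp

theorem five_sd (a b c d e f : Finset GolayPt) :
    symmDiff (symmDiff a (symmDiff b c)) (symmDiff (symmDiff d a) (symmDiff e f)) =
      symmDiff d (symmDiff (symmDiff e b) (symmDiff f c)) := by
  ext p
  simp only [Finset.mem_symmDiff]
  by_cases p ∈ a <;> by_cases p ∈ b <;> by_cases p ∈ c <;> by_cases p ∈ d <;> by_cases p ∈ e <;>
    simp [*]

namespace F5

theorem conjA [Finite G] {h : HM2 z} {f t r : G} (d : F5 h f t r) {y f' : G} (hy : IsConj z y)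
    (h5 : orderOf f' = 5) (hc : f' * y = y * f') : ∃ g, g * z * g⁻¹ = y ∧ g * f * g⁻¹ = f' := by
  haveI : Fact (Nat.Prime 5) := ⟨by norm_num⟩
  obtain ⟨u, rfl⟩ := isConj_iff.1 hy
  have hS : IsSylowIn 5 (zpowers f) (Hc z) := by
    have hle : zpowers f ≤ Hc z := zpowers_le.2 (mem_Hc.2 d.rf.comm)
    refine ⟨hle, isPGroup_zpowers_iff.2 ⟨1, d.ord⟩, ?_⟩
    have := card_mul_relIndex' hle
    rw [h.card_H, Nat.card_zpowers, d.ord] at this
    omega
  have ho : orderOf (u⁻¹ * f' * u⁻¹⁻¹) = 5 := by rw [ord_conj, h5]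
  rw [inv_inv] at ho
  obtain ⟨g, hg, hm⟩ := hS.exists_conj_mem (x := u⁻¹ * f' * u)
    (mem_cj.1 ((cj_centralizer_singleton u z).ge (mem_Hc.2 hc))) (isPGroup_zpowers_iff.2 ⟨1, ho⟩)
  obtain ⟨k, hk⟩ := Five.exists_pow_conj d.ord d.rf2 hm fun e => by
    rw [conj_eq_one_iff.1 e, orderOf_one] at ho; omega
  refine ⟨u * (g⁻¹ * r ^ k), ?_, ?_⟩
  · rw [mul_assoc u, comm_mul (comm_inv (mem_Hc.1 hg)) (comm_pow d.rr.comm k)]; group
  · calc _ = u * (g⁻¹ * (r ^ k * f * (r ^ k)⁻¹) * g) * u⁻¹ := by group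
      _ = _ := by rw [hk]; group

variable {j : JM z} {f t r : G} (d : F5 j.toHM2 f t r) (hj : j.Good)
include d hj

theorem t_not : ¬ IsConj z t := fun hA => by
  have hN : t ∈ normalizer (j.V : Set G) := by
    rw [hj.V_eq]
    exact (hj.wc.norm_H t d.rt.comm).2 ((d.rt.rp.smul_eq_iff _ (by decide)).2 (by decide +kernel))
  have hθ : ∀ w < 64, ∀ x < 16, ∀ a, j.θ (j.s w * j.l x * z ^ a) = j.θ (j.l x) := fun w hw x hx a => by
    have hw' : w < 4096 := by omega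
    rw [j.θ_mul_E (pow_mem j.toHM.z_mem a) (comm_mul (j.s_z hw') (j.l_z hx)),
      j.θ_E_mul (j.s_mem hw') (j.l_z hx)]
  obtain ⟨a, ha, e⟩ := j.toMM.ψ_spec hN
  have hg1 : j.toMM.ψ t ≠ 1 := fun e' => by
    obtain ⟨w, hw, x, hx, b, -, e⟩ := j.toHM2.mem_VV.1 (hj.V_eq ▸ (j.toMM.ψ_eq_one_iff hN).1 e')
    exact d.t_out (by rw [e, hθ w hw x hx]; exact j.l_inner hx)
  have hd : ∀ x < 16, ∀ k, dict k 0 x 1 = true → (ofMask k).card = 2 →
      intw (ap (rE 26)) (ap (uE x)) (ap (uE x)) = true → (j.toMM.ψ t : P24) • ofMask k = ofMask k :=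
    fun x hx k h1 h2 h3 => (j.toMM.comm_duad_iff hN h2).1 (by
      rw [(j.c_dict (by norm_num) hx one_lt_two h1).2, j.s_zero, one_mul, pow_one, ← mul_assoc,
        mul_inv_eq_iff_eq_mul.1 (d.comm_l hx ((d.rt.rp.intw_iff (j.l_θ x hx) (j.l_θ x hx)).1 h3)),
        mul_assoc, d.rt.comm, mul_assoc])
  have hfix : fixS (j.toMM.ψ t : P24) ≠ ∅ := by
    have h1 := hd 7 (by norm_num) 40 (by decide +kernel) (by decide +kernel) (by decide +kernel)
    have h2 := hd 8 (by norm_num) 24 (by decide +kernel) (by decide +kernel) (by decide +kernel)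
    rw [show ofMask 40 = {pt 3, pt 5} by decide +kernel] at h1
    rw [show ofMask 24 = {pt 3, pt 4} by decide +kernel] at h2
    exact Finset.ne_empty_of_mem (mem_fixS.2
      (fix_of_pairs (by decide +kernel) (by decide +kernel) (by decide +kernel) h1 h2))
  have h15 := ev_four card_15
  have e2 : z * t = j.c (symmDiff (ofMask 15) a) * j.κ (j.toMM.ψ t) := by
    rw [j.c_mul _ _ h15 ha, ← j.z_eq, mul_assoc, ← e]
  obtain ⟨b, hb, h1⟩ := ((hj.full.cls _ a ha hg1 (e ▸ d.t2)).1 (e ▸ hA)).1 hfix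
  have hA' := hA.trans d.t_conj_tz
  obtain ⟨b', hb', h2⟩ := ((hj.full.cls _ _ (ev_sd h15 ha) hg1
    (e2 ▸ sq_of_isConj j.zz hA')).1 (e2 ▸ hA')).1 hfix
  have hv := ev_sd hb' hb
  have e3 : z = j.c (symmDiff b' b) * (t * j.c (symmDiff b' b) * t⁻¹) := by
    rw [j.toMM.ψ_act hN hv, ← j.c_mul _ _ hv (ev_smul _ hv)]
    refine j.z_eq.trans ((j.toMM.c_eq_iff h15 (ev_sd hv (ev_smul _ hv))).2 ?_)
    have := symmDiff_mem_codeSets h1 h2
    rw [smul_symmDiff']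
    rwa [five_sd] at this
  obtain ⟨w, hw, x, hx, c, -, e4⟩ := j.toHM2.mem_VV.1 (hj.V_eq ▸ j.toMM.c_mem hv)
  have hw' : w < 4096 := by omega
  have vz := comm_mul (comm_mul (j.s_z hw') (j.l_z hx)) (comm_pow (rfl : z * z = z * z) c)
  rw [e4] at e3
  have e5 := (congrArg j.θ e3).symm.trans j.θ_z
  rw [j.θ_mul _ _ vz (comm_mul (comm_mul d.rt.comm vz) (comm_inv d.rt.comm)),
    j.θ_conj d.rt.comm vz, hθ w hw x hx] at e5
  have e6 := d.comm_l hx (by
    have := j.θ_mul _ _ (j.l_z hx) (j.l_z hx)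
    rw [j.l_sq hx, j.θ_one] at this
    rw [← mul_inv_eq_iff_eq_mul, eq_inv_of_mul_eq_one_right e5, ← eq_inv_of_mul_eq_one_right this.symm])
  have hS : mv (rM 26) w < 64 ∧ qf w = 0 := by clear e3 e4 e5 vz hw'; revert w; decide +kernel
  rw [← conj_mul, ← conj_mul, conj_zpow d.rt.comm, e6, d.t_s hw', hS.2, pow_zero, mul_one,
    j.v_mul hw hS.1 hx hx, Nat.xor_self, Nat.xor_self, fU_self hx] at e3
  have := (j.v_inj (w := 0) (x := 0) (x' := 0) (a := 1) (by norm_num) (xor_lt' hw' (mv_lt _ _)) (by norm_num)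
    (by norm_num) (by rw [← e3, j.s_zero, j.l_zero]; simp)).2.2
  simp at this

theorem memA {y : G} (hA : IsConj z y) (hz : y * z = z * y) (hf : y * f = f * y) : y ∈ j.Z8 := by
  have h2 := sq_of_isConj j.zz hA
  rcases d.θ_inv_cases hz hf h2 with e | e
  · exact d.mem_Z8_of (j.mem_E_of_two hz e (n := 1) (by rw [pow_one, pow_two, h2])) hf hA
  · exact absurd (hA.trans (d.conj_t hz e h2).symm) (d.t_not hj)

variable [Finite G]

theorem commA {w y y' : G} (hw : IsConj z w) (wf : f * w = w * f) (hy : IsConj z y) (yf : y * f = f * y)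
    (yw : y * w = w * y) (hy' : IsConj z y') (yf' : y' * f = f * y') (yw' : y' * w = w * y') :
    y * y' = y' * y := by
  obtain ⟨g, rfl, hg⟩ := d.conjA hw d.ord wf
  have key : ∀ {u : G}, IsConj z u → u * f = f * u → u * (g * z * g⁻¹) = g * z * g⁻¹ * u →
      g⁻¹ * u * g ∈ j.Z8 := fun {u} h1 h2 h3 => d.memA hj (h1.trans (isConj_iff.2 ⟨g⁻¹, by simp⟩))
    (mem_Hc.1 (mem_cj.1 ((cj_centralizer_singleton g z).ge (mem_Hc.2 h3))))
    (mem_Hc.1 (mem_cj.1 ((cj_centralizer_singleton g f).ge (mem_Hc.2 (hg.symm ▸ h2)))))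
  calc _ = g * (g⁻¹ * y * g * (g⁻¹ * y' * g)) * g⁻¹ := by group
    _ = _ := by rw [j.Z8_comm (key hy yf yw) (key hy' yf' yw')]; group

theorem memZ_of {y : G} (hA : IsConj z y) (hf : y * f = f * y) : y ∈ j.Z8 := by
  have hb : (2035 : ℕ) < 4096 := by norm_num
  have b2 : j.s 2035 * j.s 2035 = 1 := by
    rw [j.s_sq hb, show qf 2035 = 0 by decide +kernel, pow_zero]
  have bB : ¬ IsConj z (j.s 2035) := fun e =>
    absurd ((j.conj_E _ hb (by norm_num)).1 e) (by decide +kernel)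
  have bf : j.s 2035 * f = f * j.s 2035 := by simpa using (d.comm_s hb 0).2 (by decide)
  obtain ⟨ζ, hζ, hc⟩ := hj.full.zeta (j.s_ne _ hb (by norm_num)).1 b2 bB d.ord bf.symm
  have ζf := hc f bf.symm rfl
  have y2 := sq_of_isConj j.zz hA
  have key : y * ζ = ζ * y := by
    rcases Nat.even_or_odd (orderOf (y * j.s 2035)) with he | ho
    · obtain ⟨m, h1, h2, h3, -⟩ := exists_central_of_even y2 b2 he
      have wf := comm_pow (comm_mul hf bf) m
      by_cases hw : IsConj z ((y * j.s 2035) ^ m)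
      · exact d.commA hj hw wf.symm hA hf h2 hζ ζf.symm (hc _ h3.symm wf).symm
      · obtain ⟨ζ', hζ', hc'⟩ := hj.full.zeta (ne_one_of_ord h1) (sq_of_ord h1) hw d.ord wf.symm
        have ζf' := hc' f wf.symm rfl
        exact d.commA hj hζ' ζf' hA hf (hc' y h2 hf) hζ ζf.symm
          (hc ζ' (hc' _ h3 bf).symm ζf'.symm).symm
    · obtain ⟨k, hk⟩ := Tech.exists_pow_conj_of_odd y2 b2 ho
      exact absurd (hA.trans (isConj_iff.2 ⟨_, hk⟩).symm) bB
  exact d.memA hj hA (d.commA hj hζ ζf hA hf key (IsConj.refl z) d.rf.comm.symm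
    (hc z (j.s_z hb).symm d.rf.comm.symm)) hf

theorem memZ {y : G} : y ∈ j.Z8 ↔ y = 1 ∨ IsConj z y ∧ y * f = f * y :=
  ⟨fun h => or_iff_not_imp_left.2 fun h1 => ⟨j.Z8_conj h h1, d.Z8_f h⟩,
    fun h => h.elim (fun e => e ▸ one_mem _) fun e => d.memZ_of hj e.1 e.2⟩

theorem norm_le : normalizer (zpowers f : Set G) ≤ normalizer (j.Z8 : Set G) := fun g hg =>
  mem_normalizer_of_forall fun y hy => (d.memZ hj).2 (((d.memZ hj).1 hy).imp (fun e => by simp [e])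
    fun e => ⟨e.1.trans (isConj_iff.2 ⟨g, rfl⟩), by
      have := (Five.cent_zpowers f).ge (mem_Hc.2 e.2) _ (conj_mem_of_mem_normalizer' hg (mem_zpowers f))
      calc _ = g * (y * (g⁻¹ * f * g)) * g⁻¹ := by group
        _ = _ := by rw [← this]; group⟩)

omit hj in
theorem trans {y : G} (hy : y ∈ j.Z8) (h1 : y ≠ 1) : ∃ g ∈ Hc f, g * z * g⁻¹ = y := by
  obtain ⟨g, e1, e2⟩ := d.conjA (j.Z8_conj hy h1) d.ord (d.Z8_f hy).symm
  exact ⟨g, mem_Hc.2 (mul_inv_eq_iff_eq_mul.1 e2), e1⟩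

theorem fd : Five.FD f (j.s 2034 * t) r j.Z8 := by
  have hN := (Five.Hc_le_N f).trans (d.norm_le hj)
  have h8 := fun e (he : e ∈ j.Z8) => d.ord8 he
  refine ⟨d.ord, j.card_Z8, fun _ ha _ hb => j.Z8_comm ha hb, fun _ => j.Z8_sq, hN,
    fun _ h => mem_Hc.2 (d.Z8_f h), fun y hy => d.cent_Z8 (mem_Hc.1 hy), ?_, mem_Hc.2 d.x8_f,
    by rw [← one_mul (j.s 2034 * t), h8 1 (one_mem _)]; exact j.z_mem_Z8,
    fun e he h => j.z_ne ((h8 e he).symm.trans h), d.rf2, d.r4⟩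
  have h7 : 7 ∣ Nat.card (Hc f) := by
    have := Five.relIndex_trans hN j.z_mem_Z8 j.z_ne fun y => d.trans
    rw [j.card_Z8] at this
    exact (show (Hc z).relIndex (Hc f) = 7 by omega) ▸ relIndex_dvd_card _ _
  have h3 : 3 ∣ Nat.card (Hc f) := j.orderOf_rho ▸ orderOf_dvd_natCard _ (mem_Hc.2 d.rho_f)
  have h64 : 64 ∣ Nat.card (Hc f) := by
    have hle : j.E ⊓ Hc f ≤ Hc z ⊓ Hc f := inf_le_inf_right _ fun x hx => mem_Hc.2 (j.E_z hx)
    have := normal_subgroupOf_of_le_normalizer (H := Hc z ⊓ Hc f) (N := j.E ⊓ Hc f) fun g hg =>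
      mem_normalizer_of_forall fun x hx => ⟨j.conj_mem_E (mem_Hc.1 hg.1) hx.1,
        (Hc f).mul_mem ((Hc f).mul_mem hg.2 hx.2) ((Hc f).inv_mem hg.2)⟩
    have hp : t ^ (j.E ⊓ Hc f).relIndex (Hc z ⊓ Hc f) ∈ j.E ⊓ Hc f :=
      ((j.E ⊓ Hc f).subgroupOf (Hc z ⊓ Hc f)).pow_index_mem ⟨t, mem_Hc.2 d.rt.comm, mem_Hc.2 d.tf⟩
    refine Dvd.dvd.trans ?_ (card_dvd_of_le (inf_le_right (a := Hc z)))
    rw [← card_mul_relIndex' hle, d.card_Ef]
    rcases Nat.even_or_odd' ((j.E ⊓ Hc f).relIndex (Hc z ⊓ Hc f)) with ⟨k, e | e⟩ <;> rw [e] at hp ⊢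
    · omega
    · rw [pow_succ, pow_mul, pow_two, d.t2, one_pow, one_mul] at hp
      exact absurd (by rw [j.θ_E t hp.1]; rfl) d.t_out
  omega

end F5

variable [Finite G]

theorem JM.Good.exists_fd {j : JM z} (hj : j.Good) : ∃ f x r, Five.FD f x r j.Z8 :=
  let ⟨_, _, _, d⟩ := j.exists_F5
  ⟨_, _, _, d.fd hj⟩

theorem JM.Good.cent5 {j : JM z} (hj : j.Good) :
    ∀ x : G, orderOf x = 5 → Nat.card (centralizer ({x} : Set G)) = 6720 := fun _ hx =>
  let ⟨_, _, _, d⟩ := hj.exists_fd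
  d.cent5 hx

theorem JM.Good.five {j : JM z} (hj : j.Good) (Q : Subgroup G) (hQ : Nat.card Q = 5) :
    ¬ (25 ∣ Nat.card G) ∧
    (∃ J : Subgroup G, IsInternalDirectProduct Q J (centralizer (Q : Set G)) ∧
      ∃ (E : Subgroup J) (_ : E.Normal), IsElementaryAbelian 2 E ∧ Nat.card E = 8 ∧
        Nonempty (J ⧸ E ≃* Matrix.SpecialLinearGroup (Fin 3) (ZMod 2)) ∧
        ∀ K : Subgroup J, ¬ E.IsComplement' K) ∧
    (∃ R : Subgroup G, Q ≤ R ∧ R ≤ normalizer (Q : Set G) ∧ Nat.card R = 20 ∧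
      R ⊓ centralizer (Q : Set G) = Q) ∧
    Nat.card (normalizer (Q : Set G)) = 2 ^ 8 * 3 * 5 * 7 := by
  haveI : Fact (Nat.Prime 5) := ⟨by norm_num⟩
  obtain ⟨_, _, _, d⟩ := hj.exists_fd
  obtain ⟨y, rfl⟩ := Q.isCyclic_iff_exists_zpowers_eq_top.1 (isCyclic_of_prime_card hQ)
  obtain ⟨g, rfl⟩ := d.conj5 (y := y) (by rw [← Nat.card_zpowers, hQ])
  exact (d.cj g).main

end CfsgLib.J4T
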